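import Groth.Agent.Sga2.ThickCoh
import Groth.Agent.Sga2.LefPow644
import Groth.Prelude.Def_LefX

/-!
# `H^i(X, O_X) → lim_m H^i(X, O_X/𝓘^{m+1})` from the vanishing of `H^i(X, P^m)` (S3359)

Author: helper81
-/

set_option autoImplicit false
universe u

open CategoryTheory CategoryTheory.Limits AlgebraicGeometry Opposite TopologicalSpace

namespace Groth.Agent.Sga2lef.H81.Lim

open Groth.Agent Groth.Agent.CohqB

variable {X : Scheme.{u}}

theorem hmap_toSubscheme_quotMap {I J : X.IdealSheafData} (h : I ≤ J) (i : ℕ)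
    (x : Coh.HH X (Coh.structureModule X) i) :
    HSeqMod.hmap (Lef.quotMap h) i (HSeqMod.hmap (ClSub.toSubscheme I) i x) =
      HSeqMod.hmap (ClSub.toSubscheme J) i x := by
  rw [← HSeqMod.hmap_comp_apply, Sga2.LefPow644.toSubscheme_quotMap]

/-- If `y` is compatible and `x` induces `y (n + k)` then `x` induces `y n`. -/
theorem down {I : X.IdealSheafData} {i : ℕ}
    {y : ∀ m : ℕ, Coh.HH X (ClSub.quotMod (I ^ (m + 1))) i}
    (hy : ∀ m : ℕ, HSeqMod.hmap (Lef.quotMap (Lef.pow_succ_le I m)) i (y (m + 1)) = y m)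
    (x : Coh.HH X (Coh.structureModule X) i) (k n : ℕ)
    (h : HSeqMod.hmap (ClSub.toSubscheme (I ^ (n + k + 1))) i x = y (n + k)) :
    HSeqMod.hmap (ClSub.toSubscheme (I ^ (n + 1))) i x = y n := by
  induction k with
  | zero => exact h
  | succ k ih =>
    apply ih
    have h1 : HSeqMod.hmap (ClSub.toSubscheme (I ^ (n + k + 2))) i x = y (n + k + 1) := h
    rw [← hy (n + k), ← h1]
    exact (hmap_toSubscheme_quotMap (Lef.pow_succ_le I (n + k)) i x).symm

/-- The limit statement from bijectivity at all large finite levels. -/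
theorem limit_of_eventually (I : X.IdealSheafData) (n : ℕ)
    (h : ∃ m₀ : ℕ, ∀ m : ℕ, m₀ ≤ m → (∀ i : ℕ, i < n → Function.Bijective (Sheaf.H.map
      ((SheafOfModules.toSheaf X.ringCatSheaf).map (ClSub.toSubscheme (I ^ (m + 1)))) i)) ∧
      Function.Injective (Sheaf.H.map
        ((SheafOfModules.toSheaf X.ringCatSheaf).map (ClSub.toSubscheme (I ^ (m + 1)))) n)) (i : ℕ) :
    (i ≤ n → ∀ x : Coh.HH X (Coh.structureModule X) i,
      (∀ m : ℕ, Sheaf.H.map ((SheafOfModules.toSheaf X.ringCatSheaf).map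
        (ClSub.toSubscheme (I ^ (m + 1)))) i x = 0) → x = 0) ∧
    (i < n → ∀ y : (∀ m : ℕ, Coh.HH X (ClSub.quotMod (I ^ (m + 1))) i),
      (∀ m : ℕ, Sheaf.H.map ((SheafOfModules.toSheaf X.ringCatSheaf).map
        (Lef.quotMap (Lef.pow_succ_le I m))) i (y (m + 1)) = y m) →
      ∃ x : Coh.HH X (Coh.structureModule X) i, ∀ m : ℕ, Sheaf.H.map
        ((SheafOfModules.toSheaf X.ringCatSheaf).map (ClSub.toSubscheme (I ^ (m + 1)))) i x = y m) := by
  obtain ⟨m₀, h⟩ := h
  have hinj : ∀ m : ℕ, m₀ ≤ m → i ≤ n → Function.Injective (Sheaf.H.map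
      ((SheafOfModules.toSheaf X.ringCatSheaf).map (ClSub.toSubscheme (I ^ (m + 1)))) i) := by
    intro m hm hi
    rcases hi.lt_or_eq with hi | rfl
    · exact ((h m hm).1 i hi).1
    · exact (h m hm).2
  refine ⟨fun hi x hx => ?_, fun hi y hy => ?_⟩
  · refine hinj m₀ le_rfl hi ?_
    rw [hx m₀]
    exact (map_zero _).symm
  · choose x hx using fun k : ℕ => ((h (m₀ + k) (Nat.le_add_right _ _)).1 i hi).2 (y (m₀ + k))
    have hconst : ∀ k : ℕ, x k = x 0 := by
      intro k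
      induction k with
      | zero => rfl
      | succ k ih =>
        rw [← ih]
        apply hinj (m₀ + k) (Nat.le_add_right _ _) hi.le
        rw [hx k]
        exact down hy (x (k + 1)) 1 (m₀ + k) (hx (k + 1))
    refine ⟨x 0, fun m => down hy (x 0) m₀ m ?_⟩
    rw [← hconst m]
    have h2 : ∀ (l : ℕ), l = m₀ + m → HSeqMod.hmap (ClSub.toSubscheme (I ^ (l + 1))) i (x m) = y l := by
      rintro l rfl
      exact hx m
    exact h2 _ (add_comm _ _)

/-- S3359 from the relative lemma of Enriques-Severi-Zariski for `O_X`. -/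
theorem limit_of_vanishing (𝓘 : X.IdealSheafData) (L : X.Modules)
    (hL : ClSub.IsInverseOf L (ClSub.idealMod 𝓘)) (n : ℕ)
    (h : ∃ m₀ : ℕ, ∀ m : ℕ, m₀ ≤ m → ∀ i ≤ n, Subsingleton (Coh.HH X
      (CohB1.tensorMod (Coh.structureModule X) (CohB1.tensorPow (ClSub.idealMod 𝓘) m)) i)) (i : ℕ) :
    (i ≤ n → ∀ x : Coh.HH X (Coh.structureModule X) i,
      (∀ m : ℕ, Sheaf.H.map ((SheafOfModules.toSheaf X.ringCatSheaf).map
        (ClSub.toSubscheme (𝓘 ^ (m + 1)))) i x = 0) → x = 0) ∧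
    (i < n → ∀ y : (∀ m : ℕ, Coh.HH X (ClSub.quotMod (𝓘 ^ (m + 1))) i),
      (∀ m : ℕ, Sheaf.H.map ((SheafOfModules.toSheaf X.ringCatSheaf).map
        (Lef.quotMap (Lef.pow_succ_le 𝓘 m))) i (y (m + 1)) = y m) →
      ∃ x : Coh.HH X (Coh.structureModule X) i, ∀ m : ℕ, Sheaf.H.map
        ((SheafOfModules.toSheaf X.ringCatSheaf).map (ClSub.toSubscheme (𝓘 ^ (m + 1)))) i x = y m) :=
  limit_of_eventually 𝓘 n (Sga2.ThickCoh.of_vanishing 𝓘 L hL n h) i

end Groth.Agent.Sga2lef.H81.Lim
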